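import Groth.Agent.Sga5.H843.RpushVan
import Groth.Agent.Etbc.H227.BrDvr
import Groth.Agent.Etbc.H207.Uniformizer
import Groth.Agent.Models.DVRGeneric

/-!
# `R^q j_* F = 0` for `q ≥ 2`, `j : Spec K ⟶ Spec R` the generic point of a discrete valuation ring

`F` killed by `ℓ`, and either `ℓ` is nonzero in the residue field, or `ℓ` is prime, `K` is of characteristic zero
and the residue field is perfect.
-/

set_option autoImplicit false

universe u

open CategoryTheory CategoryTheory.Limits AlgebraicGeometry Opposite IsLocalRing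

namespace Groth.Agent.Etbc.H202.RVan

open Groth.Agent

/-- The vanishing of `R^q j_*`, from the vanishing at the strict localizations at the points off `U`. -/
theorem isZero_Rpush_general (n : ℕ) {S U : Scheme.{u}} [IsLocallyNoetherian S]
    (hreg : ∀ s : S, IsRegularLocalRing (S.presheaf.stalk s))
    (hdim : ∀ s : S, ringKrullDim (S.presheaf.stalk s) ≤ 1)
    (j : U ⟶ S) [IsOpenImmersion j] [QuasiCompact j] (hU : Dense (Set.range j.base))
    (hv : ∀ (z : S) (_ : z ∉ Set.range j.base) (R : Type u) [CommRing R] [IsDomain R]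
      [IsDiscreteValuationRing R] [Algebra (S.presheaf.stalk z) R]
      [IsLocalHom (algebraMap (S.presheaf.stalk z) R)]
      [Hensel.IsStrictHenselization (S.presheaf.stalk z) R] (_ : EtCoh.IsStrictlyHenselianLocalRing R)
      (A : EtCoh.Ab (Spec (.of (FractionRing R)))), EtCoh.KilledBy n A → ∀ q, 2 ≤ q →
        Subsingleton (EtCoh.H (Spec (.of (FractionRing R))) A q))
    (A : EtCoh.Ab U) (hA : EtCoh.KilledBy n A) (q : ℕ) (hq : 2 ≤ q) :
    IsZero ((EtCoh.Rpush j q).obj A) := by
  refine Etcore.Stalks.isZero_of_stalks _ fun z => ?_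
  by_cases hz : z ∈ Set.range j.base
  · obtain ⟨y, rfl⟩ := hz
    obtain ⟨Ω, _, _, ζ, hζ⟩ := Etcore.Stalks.exists_geom y
    refine ⟨Ω, inferInstance, inferInstance, ζ ≫ j, ?_, ?_⟩
    · rw [Scheme.Hom.comp_apply, hζ]
    · obtain ⟨q, rfl⟩ : ∃ r, q = r + 1 := ⟨q - 1, by omega⟩
      have h1 := Sga4h.FinRed.isZero_pull_Rpush j A q
      exact ((EtCoh.stalk ζ).map_isZero h1).of_iso
        ((Etbase.StalkPull.stalkPullIso j ζ).app ((EtCoh.Rpush j (q + 1)).obj A))
  · obtain ⟨R, _, _, _, _, hSH, -⟩ :=
      Groth.Agent.Hensel.Exist.exists_isStrictHenselization (S.presheaf.stalk z)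
    have hsep : IsSepClosed (IsLocalRing.ResidueField R) := hSH.isSepClosure.sep_closed
    obtain ⟨hdom, hdvr, hsh, hK⟩ := Sga4h.X144Geo1.geo1 hreg hdim j hU z hz R
    obtain ⟨e⟩ := hK (FractionRing R)
    refine ⟨IsLocalRing.ResidueField R, inferInstance, hsep, Hens2.geomPt S z R,
      Sga4h.X144LocCore.geomPt_apply z R _, ?_⟩
    let A₁ := (EtCoh.pull (pullback.fst j (Hens2.specOf S z R))).obj A
    let A₂ : EtCoh.Ab (Spec (.of (FractionRing R))) := (EtCoh.pull e.inv).obj A₁
    have hN : EtCoh.KilledBy n A₂ :=
      Sga4h.EulerSpec.killedBy_pull _ (Sga4h.EulerSpec.killedBy_pull _ hA)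
    obtain ⟨e1⟩ := Groth.Agent.S0620.result j A z R q
    have E := e1.addCommGroupIsoToAddEquiv.trans (Etrest.IsoInv.HIso e.inv A₁ q)
    have h1 : Subsingleton (EtCoh.H (Spec (.of (FractionRing R))) A₂ q) := hv z hz R hsh A₂ hN q hq
    have h2 := E.toEquiv.subsingleton
    exact AddCommGrpCat.isZero_of_subsingleton _

section dvr

variable (R : Type u) [CommRing R] [IsDomain R] [IsDiscreteValuationRing R]

instance isLocallyNoetherian_spec : IsLocallyNoetherian (Spec (CommRingCat.of R)) := inferInstance

/-- The local rings of the spectrum of a discrete valuation ring are principal ideal domains. -/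
theorem isPrincipalIdealRing_stalk (s : Spec (CommRingCat.of R)) :
    IsPrincipalIdealRing ((Spec (CommRingCat.of R)).presheaf.stalk s) := by
  by_cases hs : s = genericPoint (Spec (CommRingCat.of R))
  · subst hs
    exact (inferInstance : IsPrincipalIdealRing ((Spec (CommRingCat.of R)).functionField : Type u))
  · have := H207.Uniformizer.isDed R s hs
    infer_instance

theorem isRegularLocalRing_stalk (s : Spec (CommRingCat.of R)) :
    IsRegularLocalRing ((Spec (CommRingCat.of R)).presheaf.stalk s) := by
  have := isPrincipalIdealRing_stalk R s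
  infer_instance

theorem ringKrullDim_stalk (s : Spec (CommRingCat.of R)) :
    ringKrullDim ((Spec (CommRingCat.of R)).presheaf.stalk s) ≤ 1 := by
  have := isPrincipalIdealRing_stalk R s
  exact Ring.krullDimLE_iff.1 (inferInstance : Ring.KrullDimLE 1 _)

theorem dense_range (K : Type u) [Field K] [Algebra R K] [IsFractionRing R K] :
    Dense (Set.range (Spec.map (CommRingCat.ofHom (algebraMap R K))).base) := by
  have h1 : genericPoint (Spec (CommRingCat.of R)) ∈
      Set.range (Spec.map (CommRingCat.ofHom (algebraMap R K))).base := by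
    refine Models.DVRGeneric.range_generic R K _ ?_
    exact fun h => H207.Uniformizer.closedPoint_ne R h.symm
  refine Dense.mono (Set.singleton_subset_iff.2 h1) ?_
  rw [dense_iff_closure_eq]
  exact genericPoint_spec (Spec (CommRingCat.of R))

/-- A point outside of the generic point is the closed point. -/
theorem eq_closedPoint_of_notMem (K : Type u) [Field K] [Algebra R K] [IsFractionRing R K]
    (z : Spec (CommRingCat.of R))
    (hz : z ∉ Set.range (Spec.map (CommRingCat.ofHom (algebraMap R K))).base) :
    z = IsLocalRing.closedPoint R := by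
  by_contra h
  exact hz (Models.DVRGeneric.range_generic R K z h)

/-- The local ring at the closed point. -/
theorem exists_ringEquiv_stalk (z : Spec (CommRingCat.of R)) (hz : z = IsLocalRing.closedPoint R) :
    Nonempty (R ≃+* (Spec (CommRingCat.of R)).presheaf.stalk z) := by
  let _ : Algebra R ((Spec (CommRingCat.of R)).presheaf.stalk z) := StructureSheaf.stalkAlgebra R z
  have : IsLocalization.AtPrime ((Spec (CommRingCat.of R)).presheaf.stalk z) z.asIdeal :=
    StructureSheaf.IsLocalization.to_stalk R z
  have hM : z.asIdeal.primeCompl ≤ IsUnit.submonoid R := by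
    intro x hx
    have h1 : z.asIdeal = maximalIdeal R := by rw [hz]; rfl
    have h2 : x ∉ maximalIdeal R := by
      rw [← h1]
      exact hx
    rw [IsLocalRing.mem_maximalIdeal, mem_nonunits_iff, not_not] at h2
    exact h2
  exact ⟨(IsLocalization.atUnits R z.asIdeal.primeCompl hM).toRingEquiv⟩

end dvr

theorem perfectField_of_ringEquiv {k k' : Type u} [Field k] [Field k'] (e : k ≃+* k')
    [PerfectField k] : PerfectField k' := by
  let _ : Algebra k k' := (e : k →+* k').toAlgebra
  have : Algebra.IsAlgebraic k k' := by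
    refine ⟨fun x => ?_⟩
    obtain ⟨y, rfl⟩ := e.surjective x
    exact isAlgebraic_algebraMap y
  exact Algebra.IsAlgebraic.perfectField k

/-- **`R^q j_* F = 0` for `q ≥ 2`.** -/
theorem isZero_Rpush (R K : Type u) [CommRing R] [IsDomain R] [IsDiscreteValuationRing R]
    [Field K] [Algebra R K] [IsFractionRing R K] (ℓ : ℕ)
    (h : (ℓ : ResidueField R) ≠ 0 ∨ (ℓ.Prime ∧ CharZero K ∧ PerfectField (ResidueField R)))
    (F : EtCoh.Ab (Spec (CommRingCat.of K))) (hF : EtCoh.KilledBy ℓ F) (q : ℕ) (hq : 2 ≤ q) :
    IsZero ((EtCoh.Rpush (Spec.map (CommRingCat.ofHom (algebraMap R K))) q).obj F) := by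
  have hop := Models.DVRGeneric.isOpenImmersion_generic R K
  refine isZero_Rpush_general ℓ (isRegularLocalRing_stalk R) (ringKrullDim_stalk R) _
    (dense_range R K) ?_ F hF q hq
  intro z hz A _ _ _ _ _ hSH hA B hB p hp
  obtain ⟨e⟩ := exists_ringEquiv_stalk R z (eq_closedPoint_of_notMem R K z hz)
  let φ : R →+* A := (algebraMap ((Spec (CommRingCat.of R)).presheaf.stalk z) A).comp e
  rcases h with h | ⟨h1, h2, h3⟩
  · have hu : IsUnit (ℓ : A) := by
      have h4 : IsUnit (ℓ : R) := by
        by_contra h5
        apply h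
        rw [← map_natCast (residue R), residue_eq_zero_iff]
        exact h5
      have h6 := h4.map φ
      rwa [map_natCast] at h6
    exact Sga4h.TameField.K1 A (FractionRing A) hA ℓ hu B hB p hp
  · have hff : Module.FaithfullyFlat ((Spec (CommRingCat.of R)).presheaf.stalk z) A :=
      Groth.Agent.S0539.result _ _
    have hinj : Function.Injective (algebraMap ((Spec (CommRingCat.of R)).presheaf.stalk z) A) :=
      FaithfulSMul.algebraMap_injective _ _
    have hφ : Function.Injective φ := hinj.comp e.injective
    have hR0 : CharZero R := RingHom.charZero (algebraMap R K)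
    have hA0 : CharZero A := charZero_of_injective_ringHom hφ
    have hF0 : CharZero (FractionRing A) :=
      charZero_of_injective_algebraMap (IsFractionRing.injective A (FractionRing A))
    have hpf : PerfectField (ResidueField ((Spec (CommRingCat.of R)).presheaf.stalk z)) :=
      perfectField_of_ringEquiv (ResidueField.mapEquiv e)
    have hsc := hSH.isSepClosure
    have hsep : IsSepClosed (ResidueField A) := hsc.sep_closed
    have halg : Algebra.IsSeparable (ResidueField ((Spec (CommRingCat.of R)).presheaf.stalk z))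
      (ResidueField A) := hsc.separable
    have hpfA : PerfectField (ResidueField A) :=
      Algebra.IsAlgebraic.perfectField (ResidueField ((Spec (CommRingCat.of R)).presheaf.stalk z))
    have hac : IsAlgClosed (ResidueField A) := inferInstance
    have hhens : HenselianLocalRing A := hSH.henselian
    refine H227.BrDvr.cohDimLE_one A (FractionRing A) B ?_ p (by omega)
    intro U s x
    refine ⟨U, 𝟙 U, ⟨x, rfl⟩, ?_⟩
    rw [isOfFinAddOrder_iff_nsmul_eq_zero]
    exact ⟨ℓ, h1.pos, hB U _⟩

end Groth.Agent.Etbc.H202.RVan
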